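import Cfsg.Agent.Lib.OOL.WS3
import Cfsg.Agent.Lib.OOL.GT4

set_option autoImplicit false
set_option linter.unusedSectionVars false
set_option linter.style.haveILetI false
set_option linter.unusedVariables false

open Pointwise
open scoped commutatorElement IsMulCommutative
open Subgroup Cfsg

namespace CfsgLib.OOL

universe u

section Equiv

variable {A B : Type u} [Group A] [Group B] [Finite A] [Finite B] {p : ℕ} [hpf : Fact p.Prime]

theorem stable_mem_WFam : stableNormalClosure p A ∈ WFam p A :=
  ⟨omegaOne_le_stable, fun H _ τ hτ => stableNormalClosure_map_normal τ hτ⟩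

omit [Finite A] [Finite B] in
theorem omegaOne_center_equiv (e : A ≃* B) :
    (omegaOne p (center A)).map e.toMonoidHom = omegaOne p (center B) := by
  rw [omegaOne, omegaOne, MonoidHom.map_closure]
  congr 1
  ext y
  constructor
  · rintro ⟨x, ⟨hx, hxp⟩, rfl⟩
    refine ⟨?_, by simp only [MulEquiv.coe_toMonoidHom]; rw [← map_pow, hxp, map_one]⟩
    rw [mem_center_iff]
    intro g
    obtain ⟨g', rfl⟩ := e.surjective g
    simp only [MulEquiv.coe_toMonoidHom]
    rw [← map_mul, ← map_mul, mem_center_iff.mp hx]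
  · rintro ⟨hy, hyp⟩
    obtain ⟨x, rfl⟩ := e.surjective y
    refine ⟨x, ⟨?_, ?_⟩, rfl⟩
    · rw [mem_center_iff]
      intro g
      apply e.injective
      rw [map_mul, map_mul]
      exact mem_center_iff.mp hy _
    · apply e.injective
      rw [map_pow, hyp, map_one]

theorem omegaCenterThompson_equiv (e : A ≃* B) :
    (omegaCenterThompson p A).map e.toMonoidHom = omegaCenterThompson p B := by
  have hJ := CfsgLib.PLocal.thompson_map_equiv (p := p) e
  rw [omegaCenterThompson, omegaCenterThompson, omegaOne, omegaOne, MonoidHom.map_closure]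
  congr 1
  ext y
  constructor
  · rintro ⟨x, ⟨hx, hxp⟩, rfl⟩
    obtain ⟨h1, h2⟩ := mem_inf.mp hx
    refine ⟨mem_inf.mpr ⟨?_, ?_⟩, by simp only [MulEquiv.coe_toMonoidHom]; rw [← map_pow, hxp, map_one]⟩
    · rw [← hJ]
      exact ⟨x, h1, rfl⟩
    · rw [Subgroup.mem_centralizer_iff]
      intro j hj
      rw [SetLike.mem_coe, ← hJ] at hj
      obtain ⟨j', hj', rfl⟩ := hj
      simp only [MulEquiv.coe_toMonoidHom]
      rw [← map_mul, ← map_mul, Subgroup.mem_centralizer_iff.mp h2 j' hj']
  · rintro ⟨hy, hyp⟩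
    obtain ⟨h1, h2⟩ := mem_inf.mp hy
    rw [← hJ] at h1
    obtain ⟨x, hx, rfl⟩ := h1
    refine ⟨x, ⟨mem_inf.mpr ⟨hx, ?_⟩, ?_⟩, rfl⟩
    · rw [Subgroup.mem_centralizer_iff]
      intro j hj
      apply e.injective
      rw [map_mul, map_mul]
      refine Subgroup.mem_centralizer_iff.mp h2 (e j) ?_
      rw [SetLike.mem_coe, ← hJ]
      exact ⟨j, hj, rfl⟩
    · apply e.injective
      rw [map_pow]
      simpa using hyp

theorem stableEmb_comp (e : A ≃* B) {H : Type u} [Group H] (τ : B →* H) (hτ : IsStableEmbedding p τ) :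
    IsStableEmbedding p (τ.comp e.toMonoidHom) := by
  obtain ⟨h1, h2, ⟨P, hP⟩, h4, h5, h6⟩ := hτ
  have hrange : (τ.comp e.toMonoidHom).range = τ.range := by
    rw [MonoidHom.range_comp, MonoidHom.range_eq_top_of_surjective _ e.surjective, ← MonoidHom.range_eq_map]
  have hJ := CfsgLib.PLocal.thompson_map_equiv (p := p) e
  have hΩ := omegaCenterThompson_equiv (p := p) e
  refine ⟨h1.comp e.injective, h2, ⟨P, by rw [hrange]; exact hP⟩, h4, ?_, ?_⟩
  · rw [← Subgroup.map_map, hJ]
    exact h5
  · intro V _ hV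
    rw [← Subgroup.map_map, hΩ] at hV
    exact h6 V hV

theorem WFam_map (e : A ≃* B) {W : Subgroup A} (hW : W ∈ WFam p A) : W.map e.toMonoidHom ∈ WFam p B := by
  refine ⟨?_, ?_⟩
  · rw [← omegaOne_center_equiv (p := p) e]
    exact Subgroup.map_mono hW.1
  · intro H _ τ hτ
    have := hW.2 H (τ.comp e.toMonoidHom) (stableEmb_comp e τ hτ)
    rwa [← Subgroup.map_map] at this

theorem stable_map_equiv (e : A ≃* B) :
    (stableNormalClosure p A).map e.toMonoidHom = stableNormalClosure p B := by
  apply le_antisymm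
  · have h1 : stableNormalClosure p A ≤ (stableNormalClosure p B).map e.symm.toMonoidHom :=
      sInf_le (WFam_map e.symm stable_mem_WFam)
    have h2 := Subgroup.map_mono (f := e.toMonoidHom) h1
    rw [Subgroup.map_map] at h2
    have h3 : e.toMonoidHom.comp e.symm.toMonoidHom = MonoidHom.id B := by
      ext x
      simp
    rwa [h3, Subgroup.map_id] at h2
  · exact sInf_le (WFam_map e stable_mem_WFam)

end Equiv

section Functor

variable {p : ℕ} [hpf : Fact p.Prime]

/-- `W(·)` as a functor. -/
def wF : CharF.{u} p where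
  F := fun {G} _ U => (stableNormalClosure p ↥U).map U.subtype
  map := by
    intro G H _ _ _ _ φ U hφ
    let f : U →* U.map φ := φ.subgroupMap U
    have hfinj : Function.Injective f := by
      intro a b hab
      apply Subtype.ext
      exact hφ a a.2 b b.2 (congrArg Subtype.val hab)
    have hfs : Function.Surjective f := MonoidHom.subgroupMap_surjective _ _
    let e : U ≃* U.map φ := MulEquiv.ofBijective f ⟨hfinj, hfs⟩
    have h1 := stable_map_equiv (p := p) e
    rw [← h1, Subgroup.map_map, Subgroup.map_map]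
    rfl
  le := fun U => Subgroup.map_subtype_le _
  ne := by
    intro G _ _ U hU hne
    haveI : Nontrivial U := by
      obtain ⟨y, hy, hy1⟩ := (Subgroup.bot_or_exists_ne_one U).resolve_left hne
      exact ⟨⟨⟨y, hy⟩, 1, fun h => hy1 (congrArg Subtype.val h)⟩⟩
    haveI hnt : Nontrivial (center U) := hU.center_nontrivial
    have hc : IsPGroup p (center U) := hU.to_subgroup _
    have h4 : p ∣ Nat.card (center U) := by
      obtain ⟨k, hk⟩ := IsPGroup.iff_card.mp hc
      rw [hk]
      apply dvd_pow_self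
      rintro rfl
      rw [pow_zero] at hk
      have := Finite.one_lt_card (α := center U)
      omega
    obtain ⟨⟨z, hzc⟩, hzo⟩ := exists_prime_orderOf_dvd_card' p h4
    rw [Subgroup.orderOf_mk] at hzo
    intro h
    have h5 : z ∈ stableNormalClosure p ↥U :=
      omegaOne_le_stable (Subgroup.subset_closure ⟨hzc, by rw [← hzo]; exact pow_orderOf_eq_one z⟩)
    have h6 : z.1 ∈ (stableNormalClosure p ↥U).map U.subtype := ⟨z, h5, rfl⟩
    rw [h, Subgroup.mem_bot] at h6
    have h7 : z = 1 := Subtype.ext h6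
    rw [h7, orderOf_one] at hzo
    exact hpf.out.one_lt.ne hzo

variable {G : Type u} [Group G] [Finite G]

/-- Groups of the class of the final case of the normal complement argument are action-`p`-stable. -/
theorem actionPStable_of_class (hp : p ≠ 2) (H R : Subgroup G) [hHn : H.Normal] [hRn : R.Normal] (hHp : IsPGroup p H)
    (hcomm : ∀ a ∈ R, ∀ b ∈ R, ⁅a, b⁆ ∈ H) (hRm : ∀ b ∈ R, ∃ m, 0 < m ∧ m.Coprime p ∧ b ^ m ∈ H)
    (hGR : ∀ g : G, ∃ k : ℕ, g ^ (p ^ k) ∈ R) : IsActionPStable p G := by
  classical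
  refine ⟨?_, ?_, ?_⟩
  · intro V _ hV
    exact stable_of_class hp H R hHp hcomm hRm hGR V (isPGroup_of_elem hV)
  · apply section_stable_of_quot _ _ _ CfsgLib.PLocal.pCore_normal'
    intro hn
    set Φ := (frattini ↥(pCore p G)).map (pCore p G).subtype
    set f := QuotientGroup.mk' Φ with hf
    have hfs : Function.Surjective f := QuotientGroup.mk'_surjective Φ
    haveI : (H.map f).Normal := hHn.map f hfs
    haveI : (R.map f).Normal := hRn.map f hfs
    refine stable_of_class hp (H.map f) (R.map f) (hHp.map f) ?_ ?_ ?_ _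
      ((CfsgLib.PLocal.pCore_isPGroup (p := p) (G := G)).map _)
    · rintro _ ⟨a, ha, rfl⟩ _ ⟨b, hb, rfl⟩
      exact ⟨⁅a, b⁆, hcomm a ha b hb, map_commutatorElement _ _ _⟩
    · rintro _ ⟨b, hb, rfl⟩
      obtain ⟨m, h0, hc, hm⟩ := hRm b hb
      exact ⟨m, h0, hc, b ^ m, hm, map_pow _ _ _⟩
    · intro g
      obtain ⟨g', rfl⟩ := hfs g
      obtain ⟨k, hk⟩ := hGR g'
      exact ⟨k, g' ^ p ^ k, hk, map_pow _ _ _⟩
  · intro S V _ hV
    have key : ∀ (N : Subgroup G) (V : Subgroup N) [V.Normal], IsPGroup p V → IsPStableOn p V := by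
      intro N V _ hVp
      haveI : (H.subgroupOf N).Normal := Subgroup.Normal.subgroupOf hHn N
      haveI : (R.subgroupOf N).Normal := Subgroup.Normal.subgroupOf hRn N
      refine stable_of_class hp (H.subgroupOf N) (R.subgroupOf N)
        (hHp.comap_of_injective N.subtype N.subtype_injective) ?_ ?_ ?_ _ hVp
      · intro a ha b hb
        exact hcomm a.1 ha b.1 hb
      · intro b hb
        obtain ⟨m, h0, hc, hm⟩ := hRm b.1 hb
        exact ⟨m, h0, hc, hm⟩
      · intro g
        obtain ⟨k, hk⟩ := hGR g.1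
        exact ⟨k, hk⟩
    apply key
    have h1 : IsPGroup p (V.map (normalizer (thompsonSubgroupOf p (S : Subgroup G) : Set G)).subtype) :=
      S.isPGroup'.to_le (hV.trans (Subgroup.map_subtype_le _))
    exact h1.of_equiv (Subgroup.equivMapOfInjective V _ (Subgroup.subtype_injective _)).symm

/-- **S0628** core. -/
theorem np_of_stable_closure (hp : p ≠ 2) (S : Sylow p G)
    (hN : HasNormalPComplement p ↥(normalizer (((stableNormalClosure p ↥(S : Subgroup G)).map (S : Subgroup G).subtype) : Set G))) :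
    HasNormalPComplement p G := by
  refine np_of_loc (wF (p := p)).fam ?_ _ G rfl S ?_
  · intro G _ _ P H R hHn hRn hHR hHp hcomm hRm hGR hc hHcore hstar
    haveI := hHn
    haveI := hRn
    have h1 := actionPStable_of_class hp H R hHp hcomm hRm hGR
    have h2 := stable_normal_of_action P h1 (by rw [← hHcore]; exact hc)
    exact (Subgroup.normalizer_eq_top_iff.mpr h2).symm
  · intro X hX
    rw [Set.mem_singleton_iff.mp hX]
    exact hN

end Functor

end CfsgLib.OOL
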