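import Cfsg.Agent.Lib.OOL.PSep2
import Cfsg.Agent.Lib.OOL.WS4

set_option autoImplicit false
set_option linter.unusedSectionVars false
set_option linter.style.haveILetI false
set_option linter.unusedVariables false

open Pointwise
open scoped commutatorElement IsMulCommutative
open Subgroup Cfsg

namespace CfsgLib.OOL

universe u

section

variable {G : Type u} [Group G] [Finite G] {p : ℕ} [hpf : Fact p.Prime]

theorem isPStableOn_of_ps (hsep : IsPSolvable p G) (hp : 5 ≤ p) (P : Subgroup G) [hPn : P.Normal]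
    (hP : IsPGroup p P) : IsPStableOn p P := by
  intro a hq
  apply quad_mem_pCore_ps hsep hp P hPn hP (centralizer (P : Set G))
  · intro g
    rw [Subgroup.mem_centralizer_iff]
    exact ⟨fun h w hw => (h w hw).symm, fun h w hw => (h w hw).symm⟩
  · exact quad_elem hq

theorem actionPStable_of_ps (hp : 5 ≤ p) (hsep : IsPSolvable p G) : IsActionPStable p G := by
  classical
  refine ⟨?_, ?_, ?_⟩
  · intro V _ hV
    exact isPStableOn_of_ps hsep hp V (isPGroup_of_elem hV)
  · apply section_stable_of_quot _ _ _ CfsgLib.PLocal.pCore_normal'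
    intro hn
    apply isPStableOn_of_ps (psep_of_surjective _ (QuotientGroup.mk'_surjective _) hsep) hp
    exact (CfsgLib.PLocal.pCore_isPGroup (p := p) (G := G)).map _
  · intro S V _ hV
    apply isPStableOn_of_ps (psep_subgroup hsep _) hp
    have h1 : IsPGroup p (V.map (normalizer (thompsonSubgroupOf p (S : Subgroup G) : Set G)).subtype) :=
      S.isPGroup'.to_le (hV.trans (Subgroup.map_subtype_le _))
    exact h1.of_equiv (Subgroup.equivMapOfInjective V _ (Subgroup.subtype_injective _)).symm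

/-- A Frattini argument: a subgroup `E` of a Sylow subgroup, normal modulo `O`, satisfies `G = O N_G(E)`. -/
theorem frattini_mod_core (O E : Subgroup G) [hOn : O.Normal] (hO : (Nat.card O).Coprime p)
    (hEp : IsPGroup p E) (hEn : (E ⊔ O).Normal) : O ⊔ normalizer (E : Set G) = ⊤ := by
  classical
  set M := E ⊔ O with hM
  have hEM : E ≤ M := le_sup_left
  have hE' : IsPGroup p (E.subgroupOf M) := hEp.comap_of_injective M.subtype M.subtype_injective |>.to_le (by
    intro x hx
    exact hx)
  obtain ⟨Q, hQ⟩ := hE'.exists_le_sylow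
  set Q₁ := (Q : Subgroup M).map M.subtype with hQ₁
  have hQ₁p : IsPGroup p Q₁ := Q.isPGroup'.map _
  have hEQ : E ≤ Q₁ := by
    intro e he
    exact ⟨⟨e, hEM he⟩, hQ he, rfl⟩
  have hQ₁M : Q₁ ≤ M := Subgroup.map_subtype_le _
  let f := QuotientGroup.mk' O
  have hfinj : ∀ x ∈ Q₁, ∀ y ∈ Q₁, f x = f y → x = y := by
    intro x hx y hy h
    have h1 : x⁻¹ * y ∈ O := QuotientGroup.eq.mp h
    have h3 := CfsgLib.PLocal.inf_eq_bot_of_p_coprime hQ₁p hO
    have h4 : x⁻¹ * y ∈ Q₁ ⊓ O := mem_inf.mpr ⟨mul_mem (inv_mem hx) hy, h1⟩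
    rw [h3, Subgroup.mem_bot] at h4
    exact inv_mul_eq_one.mp h4
  have hcardQ : Nat.card Q₁ ≤ Nat.card E := by
    have hle : Q₁.map f ≤ E.map f := by
      rintro _ ⟨q, hq, rfl⟩
      have h1 : q ∈ E ⊔ O := hQ₁M hq
      rw [Subgroup.mem_sup_of_normal_right] at h1
      obtain ⟨e, he, o, ho, rfl⟩ := h1
      refine ⟨e, he, ?_⟩
      have h2 : f o = 1 := (QuotientGroup.eq_one_iff o).mpr ho
      rw [map_mul, h2, mul_one]
    have h1 := Subgroup.card_le_of_le hle
    have h2 : Nat.card (Q₁.map f) = Nat.card Q₁ := by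
      apply Nat.card_congr
      refine (Equiv.ofBijective (fun x : Q₁ => (⟨f x.1, x.1, x.2, rfl⟩ : Q₁.map f)) ⟨?_, ?_⟩).symm
      · intro x y h
        apply Subtype.ext
        exact hfinj x.1 x.2 y.1 y.2 (congrArg Subtype.val h)
      · rintro ⟨_, x, hx, rfl⟩
        exact ⟨⟨x, hx⟩, rfl⟩
    have h3 : Nat.card (E.map f) ≤ Nat.card E := Nat.le_of_dvd Nat.card_pos (Subgroup.card_dvd_of_surjective (f.subgroupMap E) (MonoidHom.subgroupMap_surjective _ _))
    omega
  have hQE : Q₁ = E := (Subgroup.eq_of_le_of_card_ge hEQ hcardQ).symm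
  have h1 := Sylow.normalizer_sup_eq_top (p := p) (N := M) Q
  rw [← hQ₁, hQE] at h1
  rw [eq_top_iff, ← h1]
  refine sup_le le_sup_right ?_
  refine sup_le (Subgroup.le_normalizer.trans le_sup_right) le_sup_left

/-- **S0627** core. -/
theorem core_sup_normalizer_stable (hp : 5 ≤ p) (hsep : IsPSolvable p G) (S : Sylow p G) :
    pPrimeCore p G ⊔ normalizer (((stableNormalClosure p ↥(S : Subgroup G)).map (S : Subgroup G).subtype) : Set G) = ⊤ := by
  classical
  haveI hOn : (pPrimeCore p G).Normal := CfsgLib.PLocal.pPrimeCore_normal'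
  set O := pPrimeCore p G with hO
  have hOc : (Nat.card O).Coprime p := CfsgLib.PLocal.pPrimeCore_coprime
  let f := QuotientGroup.mk' O
  have hfs : Function.Surjective f := QuotientGroup.mk'_surjective O
  have hsepQ : IsPSolvable p (G ⧸ O) := CfsgLib.PSolv.quotient hpf.out hsep O
  have hbot : pPrimeCore p (G ⧸ O) = ⊥ := CfsgLib.PLocal.pPrimeCore_quotient
  let S' : Sylow p (G ⧸ O) := S.mapSurjective hfs
  have hS' : (S' : Subgroup (G ⧸ O)) = (S : Subgroup G).map f := rfl
  have hinj := mk_inj_on_sylow S O hOc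
  have h1 := stable_normal_of_action (p := p) S' (actionPStable_of_ps hp hsepQ)
    (CfsgLib.PSolv.centralizer_pCore_le hsepQ hbot)
  have h2 := (wF (p := p)).map f hinj
  change ((stableNormalClosure p ↥((S : Subgroup G).map f)).map ((S : Subgroup G).map f).subtype) = _ at h2
  set E := (stableNormalClosure p ↥(S : Subgroup G)).map (S : Subgroup G).subtype with hE
  have h3 : (E.map f).Normal := by
    have h4 := h1
    rw [show ((stableNormalClosure p ↥(S' : Subgroup (G ⧸ O))).map (S' : Subgroup (G ⧸ O)).subtype) = E.map f from h2] at h4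
    exact h4
  have h5 : ((E.map f).comap f).Normal := h3.comap f
  rw [Subgroup.comap_map_eq, QuotientGroup.ker_mk'] at h5
  exact frattini_mod_core O E hOc (S.isPGroup'.to_le (Subgroup.map_subtype_le _)) h5

theorem psep_of_solvable (n : ℕ) : ∀ (G : Type u) [Group G] [Finite G] [Group.IsSolvable G], Nat.card G = n → IsPSolvable p G := by
  induction n using Nat.strong_induction_on with
  | _ n ih =>
  intro G _ _ _ hn
  by_cases hnt : Nontrivial G
  · have hlt : commutator G < ⊤ := Group.IsSolvable.commutator_lt_top_of_nontrivial G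
    have hcard : Nat.card (commutator G) < n := by
      rw [← hn]
      have h1 := Subgroup.card_le_card_group (commutator G)
      refine lt_of_le_of_ne h1 ?_
      intro h2
      exact hlt.ne (Subgroup.eq_top_of_card_eq _ h2)
    haveI : Group.IsSolvable (commutator G) := inferInstance
    have h3 := ih _ hcard (commutator G) rfl
    apply CfsgLib.PSolv.ext (commutator G) h3
    apply CfsgLib.PSolv.of_comm
    intro a b
    exact @mul_comm (Abelianization G) _ a b
  · rw [not_nontrivial_iff_subsingleton] at hnt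
    have hc : ∀ a b : G, a * b = b * a := fun a b => Subsingleton.elim _ _
    exact CfsgLib.PSolv.of_comm hc

/-- **S0109** core. -/
theorem thompson_factorization (hp : p ≠ 2) (hc : centralizer (pCore p G : Set G) ≤ pCore p G)
    (hst : ∀ (T : Subgroup G) [T.Normal], IsPGroup p T → IsPStableOn p T) (P : Sylow p G) (g : G) :
    ∃ a ∈ normalizer (thompsonSubgroupOf p (P : Subgroup G) : Set G),
      ∃ c ∈ centralizer {x : G | x ∈ (P : Subgroup G) ∧ (∀ y ∈ (P : Subgroup G), x * y = y * x) ∧ x ^ p = 1}, g = a * c := by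
  classical
  set J := thompsonSubgroupOf p (P : Subgroup G) with hJ
  have hJP : J ≤ (P : Subgroup G) := CfsgLib.PLocal.thompsonOf_le _
  set E := centerThompsonOf p (P : Subgroup G) with hE
  have hEn : E.Normal := zj_elem hp P hc hst
  set C₂ := centralizer (E : Set G) with hC₂
  haveI hC₂n : C₂.Normal := Subgroup.normal_centralizer
  obtain ⟨Q, hQ⟩ := CfsgLib.PLocal.exists_sylow_inf_normal P hC₂n
  have hJC₂ : J ≤ C₂ := by
    intro j hj
    rw [hC₂, Subgroup.mem_centralizer_iff]
    intro z hz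
    exact ((Subgroup.mem_centralizer_iff.mp (mem_inf.mp hz).2) j hj).symm
  have hJQ : thompsonSubgroupOf p ((P : Subgroup G) ⊓ C₂) = J :=
    CfsgLib.PLocal.thompsonOf_of_le inf_le_left (le_inf hJP hJC₂)
  have hF : C₂ ⊔ normalizer (((P : Subgroup G) ⊓ C₂ : Subgroup G) : Set G) = ⊤ := by
    have := Sylow.normalizer_sup_eq_top Q
    rw [hQ] at this
    rw [sup_comm]
    exact this
  have hg : g ∈ normalizer (((P : Subgroup G) ⊓ C₂ : Subgroup G) : Set G) ⊔ C₂ := by
    rw [sup_comm, hF]; exact mem_top _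
  rw [Subgroup.mem_sup_of_normal_right] at hg
  obtain ⟨n, hn, c, hc', he⟩ := hg
  refine ⟨n, ?_, c, ?_, he.symm⟩
  · have := CfsgLib.PLocal.normalizer_le_normalizer_thompsonOf (p := p) _ hn
    rwa [hJQ] at this
  · refine Subgroup.centralizer_le ?_ hc'
    rintro x ⟨hx1, hx2, hx3⟩
    refine mem_inf.mpr ⟨?_, ?_⟩
    · change x ∈ J
      rw [hJ, CfsgLib.PLocal.thompsonOf_eq_sSup_maxIn]
      obtain ⟨A, hA⟩ := CfsgLib.PLocal.exists_maxIn (p := p) (P : Subgroup G)
      refine (le_sSup hA) ?_
      exact maxIn_absorb hA hx1 hx3 (fun a ha => (hx2 a (hA.1 ha)).symm)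
    · rw [Subgroup.mem_centralizer_iff]
      intro j hj
      exact (hx2 j (hJP hj)).symm

end

end CfsgLib.OOL
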