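import Cfsg.Agent.Lib.OOL.StableAb2

set_option autoImplicit false
set_option linter.unusedSectionVars false
set_option linter.style.haveILetI false
set_option linter.unusedVariables false

open Pointwise
open scoped commutatorElement IsMulCommutative
open Subgroup Cfsg

namespace CfsgLib.OOL

universe u

section Quad

variable {G : Type*} [Group G]

/-- Element-wise quadratic action. -/
def QuadE (U : Subgroup G) (x : G) : Prop := ∀ u ∈ U, ⁅⁅u, x⁆, x⁆ = 1

theorem QuadE.mono {U U' : Subgroup G} (h : U ≤ U') {x : G} (hx : QuadE U' x) : QuadE U x :=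
  fun u hu => hx u (h hu)

theorem quadE_of_subgroup {U : Subgroup G} {a : G} (ha : ⁅⁅U, zpowers a⁆, zpowers a⁆ = ⊥) : QuadE U a := by
  intro w hw
  have h1 : ⁅w, a⁆ ∈ ⁅U, zpowers a⁆ := Subgroup.commutator_mem_commutator hw (mem_zpowers a)
  have h2 : ⁅⁅w, a⁆, a⁆ ∈ ⁅⁅U, zpowers a⁆, zpowers a⁆ :=
    Subgroup.commutator_mem_commutator h1 (mem_zpowers a)
  rwa [ha, Subgroup.mem_bot] at h2

theorem comm_pow_of_quad {v a : G} (h : ⁅⁅v, a⁆, a⁆ = 1) (n : ℕ) : ⁅v, a ^ n⁆ = ⁅v, a⁆ ^ n := by
  set q := ⁅v, a⁆ with hq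
  have hqa : q * a = a * q := commutatorElement_eq_one_iff_mul_comm.mp h
  have h1 : a * v * a⁻¹ = q⁻¹ * v := by
    rw [hq]; simp only [commutatorElement_def]; group
  have h2 : ∀ n : ℕ, a ^ n * v * (a ^ n)⁻¹ = (q⁻¹) ^ n * v := by
    intro n
    induction n with
    | zero => simp
    | succ n ih =>
      have hqai : a * q⁻¹ = q⁻¹ * a := by
        have : Commute q a := hqa
        exact (this.inv_left).eq.symm
      have hqan : a * (q⁻¹) ^ n = (q⁻¹) ^ n * a := ((Commute.pow_right (show Commute a (q⁻¹) from hqai) n)).eq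
      calc a ^ (n + 1) * v * (a ^ (n + 1))⁻¹ = a * (a ^ n * v * (a ^ n)⁻¹) * a⁻¹ := by
            rw [pow_succ']; group
        _ = a * ((q⁻¹) ^ n * v) * a⁻¹ := by rw [ih]
        _ = (q⁻¹) ^ n * (a * v * a⁻¹) := by
            calc a * ((q⁻¹) ^ n * v) * a⁻¹ = (a * (q⁻¹) ^ n) * v * a⁻¹ := by group
              _ = ((q⁻¹) ^ n * a) * v * a⁻¹ := by rw [hqan]
              _ = _ := by group
        _ = (q⁻¹) ^ n * (q⁻¹ * v) := by rw [h1]
        _ = (q⁻¹) ^ (n + 1) * v := by rw [pow_succ]; group
  rw [commutatorElement_def]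
  have h3 : v * a ^ n * v⁻¹ * (a ^ n)⁻¹ = v * (a ^ n * v * (a ^ n)⁻¹)⁻¹ := by group
  rw [h3, h2, mul_inv_rev, inv_pow, inv_inv]
  group

theorem subgroup_of_quadE [Finite G] {U : Subgroup G} {a : G} (ha : QuadE U a) :
    ⁅⁅U, zpowers a⁆, zpowers a⁆ = ⊥ := by
  classical
  rw [Subgroup.commutator_eq_bot_iff_le_centralizer]
  rw [Subgroup.commutator_le]
  intro v hv e he
  rw [← mem_powers_iff_mem_zpowers] at he
  obtain ⟨n, rfl⟩ := he
  rw [comm_pow_of_quad (ha v hv) n]
  apply pow_mem
  rw [Subgroup.mem_centralizer_iff]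
  intro z hz
  obtain ⟨k, rfl⟩ := Subgroup.mem_zpowers_iff.mp hz
  have h1 : Commute ⁅v, a⁆ a := commutatorElement_eq_one_iff_mul_comm.mp (ha v hv)
  exact ((h1.zpow_right k).eq).symm

end Quad

section W

variable {S : Type u} [Group S] {p : ℕ} [hpf : Fact p.Prime]

/-- The defining family of `W(S)`. -/
def WFam (p : ℕ) (S : Type u) [Group S] : Set (Subgroup S) :=
  {W : Subgroup S | omegaOne p (center S) ≤ W ∧
    ∀ (H : Type u) [Group H] (τ : S →* H), IsStableEmbedding p τ → (W.map τ).Normal}

theorem stableNormalClosure_eq : stableNormalClosure p S = sInf (WFam p S) := rfl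

theorem omegaOne_le_stable : omegaOne p (center S) ≤ stableNormalClosure p S :=
  le_sInf (fun _ hW => hW.1)

theorem closure_normal_of_conj {H : Type*} [Group H] (s : Set H) (h : ∀ g, ∀ x ∈ s, g * x * g⁻¹ ∈ s) :
    (closure s).Normal := by
  refine ⟨fun n hn g => ?_⟩
  induction hn using Subgroup.closure_induction with
  | mem x hx => exact subset_closure (h g x hx)
  | one => simp
  | mul x y _ _ hx hy =>
    have e : g * (x * y) * g⁻¹ = (g * x * g⁻¹) * (g * y * g⁻¹) := by group
    rw [e]
    exact mul_mem hx hy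
  | inv x _ hx =>
    have e : g * x⁻¹ * g⁻¹ = (g * x * g⁻¹)⁻¹ := by group
    rw [e]
    exact inv_mem hx

variable [Finite S]

theorem thompson_ge_center {x : S} (hx : x ∈ center S) (hxp : x ^ p = 1) : x ∈ thompsonSubgroup p S := by
  classical
  obtain ⟨A, hA⟩ := CfsgLib.PLocal.exists_max (G := S) (p := p)
  have hA' : A ∈ CfsgLib.PLocal.maxIn p (⊤ : Subgroup S) :=
    ⟨le_top, hA.1, fun B _ hB => hA.2 B hB⟩
  refine (le_sSup hA : A ≤ thompsonSubgroup p S) ?_
  exact maxIn_absorb hA' (mem_top x) hxp (fun a _ => (mem_center_iff.mp hx a))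

theorem omegaOne_le_omegaCenterThompson : omegaOne p (center S) ≤ omegaCenterThompson p S := by
  refine Subgroup.closure_mono ?_
  rintro x ⟨hx, hxp⟩
  refine ⟨mem_inf.mpr ⟨thompson_ge_center hx hxp, ?_⟩, hxp⟩
  rw [Subgroup.mem_centralizer_iff]
  intro j _
  exact mem_center_iff.mp hx j

theorem omegaCenterThompson_le : omegaCenterThompson p S ≤
    thompsonSubgroup p S ⊓ centralizer (thompsonSubgroup p S : Set S) := by
  rw [omegaCenterThompson, omegaOne, Subgroup.closure_le]
  rintro x ⟨hx, -⟩
  exact hx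

theorem omegaCenterThompson_comm : ∀ x ∈ omegaCenterThompson p S, ∀ y ∈ omegaCenterThompson p S, x * y = y * x := by
  intro x hx y hy
  exact (Subgroup.mem_centralizer_iff.mp (mem_inf.mp (omegaCenterThompson_le hx)).2 y
    (mem_inf.mp (omegaCenterThompson_le hy)).1).symm

theorem omegaCenterThompson_exp : ∀ x ∈ omegaCenterThompson p S, x ^ p = 1 := by
  have hsub : omegaCenterThompson p S ≤ (zpowers (1 : S)) ⊔ omegaCenterThompson p S := le_sup_right
  rw [show (omegaCenterThompson p S) = closure {x | x ∈ thompsonSubgroup p S ⊓ centralizer (thompsonSubgroup p S : Set S) ∧ x ^ p = 1} from rfl]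
  intro x hx
  induction hx using Subgroup.closure_induction with
  | mem x hx => exact hx.2
  | one => simp
  | mul x y hx' hy' hx hy =>
    have hc : Commute x y := omegaCenterThompson_comm x hx' y hy'
    rw [hc.mul_pow, hx, hy, one_mul]
  | inv x _ hx => rw [inv_pow, hx, inv_one]

theorem omegaCenterThompson_mem_WFam : omegaCenterThompson p S ∈ WFam p S := by
  refine ⟨omegaOne_le_omegaCenterThompson, ?_⟩
  intro H _ τ hτ
  obtain ⟨hinj, hfin, -, -, hJn, -⟩ := hτ
  set J := thompsonSubgroup p S with hJ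
  have e : (omegaCenterThompson p S).map τ =
      closure {y : H | y ∈ J.map τ ∧ y ∈ centralizer ((J.map τ : Subgroup H) : Set H) ∧ y ^ p = 1} := by
    rw [omegaCenterThompson, omegaOne, MonoidHom.map_closure]
    congr 1
    ext y
    constructor
    · rintro ⟨x, ⟨hx, hxp⟩, rfl⟩
      refine ⟨⟨x, (mem_inf.mp hx).1, rfl⟩, ?_, by rw [← map_pow, hxp, map_one]⟩
      rw [Subgroup.mem_centralizer_iff]
      rintro _ ⟨j, hj, rfl⟩
      rw [← map_mul, ← map_mul, Subgroup.mem_centralizer_iff.mp (mem_inf.mp hx).2 j hj]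
    · rintro ⟨⟨x, hx, rfl⟩, hc, hp'⟩
      refine ⟨x, ⟨mem_inf.mpr ⟨hx, ?_⟩, ?_⟩, rfl⟩
      · rw [Subgroup.mem_centralizer_iff]
        intro j hj
        apply hinj
        rw [map_mul, map_mul]
        exact Subgroup.mem_centralizer_iff.mp hc _ ⟨j, hj, rfl⟩
      · apply hinj
        rw [map_pow, hp', map_one]
  rw [e]
  apply closure_normal_of_conj
  rintro g y ⟨h1, h2, h3⟩
  refine ⟨hJn.conj_mem y h1 g, ?_, by rw [conj_pow, h3, mul_one, mul_inv_cancel]⟩
  rw [Subgroup.mem_centralizer_iff]
  intro j hj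
  have h4 := Subgroup.mem_centralizer_iff.mp h2 _ (hJn.conj_mem j hj g⁻¹)
  have e2 : g⁻¹ * j * g⁻¹⁻¹ = g⁻¹ * j * g := by group
  rw [e2] at h4
  calc j * (g * y * g⁻¹) = g * ((g⁻¹ * j * g) * y) * g⁻¹ := by group
    _ = g * (y * (g⁻¹ * j * g)) * g⁻¹ := by rw [h4]
    _ = _ := by group

theorem stable_le_omegaCenterThompson : stableNormalClosure p S ≤ omegaCenterThompson p S :=
  sInf_le omegaCenterThompson_mem_WFam

theorem stableNormalClosure_map_normal {H : Type u} [Group H] (τ : S →* H) (hτ : IsStableEmbedding p τ) :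
    ((stableNormalClosure p S).map τ).Normal := by
  have hinj := hτ.1
  refine ⟨?_⟩
  rintro _ ⟨w, hw, rfl⟩ h
  have hΩn := omegaCenterThompson_mem_WFam.2 H τ hτ
  obtain ⟨w', hw', he⟩ := hΩn.conj_mem (τ w) ⟨w, stable_le_omegaCenterThompson hw, rfl⟩ h
  refine ⟨w', ?_, he⟩
  apply (Subgroup.mem_sInf).mpr
  intro W' hW'
  have hn := hW'.2 H τ hτ
  have hwW' : w ∈ W' := (Subgroup.mem_sInf.mp hw) W' hW'
  obtain ⟨w'', hw'', he'⟩ := hn.conj_mem (τ w) ⟨w, hwW', rfl⟩ h
  have : w'' = w' := hinj (he'.trans he.symm)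
  rwa [← this]

/-- **S0623** core: no element acts quadratically and nontrivially on `W(S)`. -/
theorem stable_quad_central {x : S} (hq : QuadE (stableNormalClosure p S) x) :
    ∀ u ∈ stableNormalClosure p S, x * u = u * x := by
  classical
  set W := stableNormalClosure p S with hW
  let 𝓕 : Set (Subgroup S) := {U | omegaOne p (center S) ≤ U ∧ U ≤ W ∧ ∀ x, QuadE U x → ∀ u ∈ U, x * u = u * x}
  have hF0 : omegaOne p (center S) ∈ 𝓕 := by
    refine ⟨le_refl _, omegaOne_le_stable, ?_⟩
    intro y _ u hu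
    have h1 : omegaOne p (center S) ≤ center S := by
      rw [omegaOne, Subgroup.closure_le]
      rintro z ⟨hz, -⟩
      exact hz
    exact (mem_center_iff.mp (h1 hu) y)
  set W₂ := sSup 𝓕 with hW₂
  have hW₂F : W₂ ∈ 𝓕 := by
    refine ⟨le_sSup hF0, sSup_le (fun U hU => hU.2.1), ?_⟩
    intro y hy u hu
    have hle : W₂ ≤ centralizer ({y} : Set S) := by
      apply sSup_le
      intro U hU v hv
      rw [Subgroup.mem_centralizer_iff]
      intro z hz
      rw [Set.mem_singleton_iff.mp hz]
      exact hU.2.2 y (hy.mono (le_sSup hU)) v hv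
    exact Subgroup.mem_centralizer_iff.mp (hle hu) y rfl
  have hfam : W₂ ∈ WFam p S := by
    refine ⟨hW₂F.1, ?_⟩
    intro H _ τ hτ
    have hinj := hτ.1
    haveI hHf : Finite H := hτ.2.1
    obtain ⟨P, hP⟩ := hτ.2.2.1
    set V := normalClosure ((W₂.map τ : Subgroup H) : Set H) with hV
    haveI hVn : V.Normal := Subgroup.normalClosure_normal
    have hW₂V : W₂.map τ ≤ V := Subgroup.le_normalClosure
    have hVW : V ≤ W.map τ := by
      haveI := stableNormalClosure_map_normal τ hτ
      apply Subgroup.normalClosure_le_normal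
      exact Subgroup.map_mono hW₂F.2.1
    have hVΩ : V ≤ (omegaCenterThompson p S).map τ :=
      hVW.trans (Subgroup.map_mono stable_le_omegaCenterThompson)
    have hVr : V ≤ τ.range := hVΩ.trans (Subgroup.map_le_range _ _)
    set U := V.comap τ with hU
    have hUV : U.map τ = V := Subgroup.map_comap_eq_self hVr
    have hUF : U ∈ 𝓕 := by
      refine ⟨hW₂F.1.trans ?_, ?_, ?_⟩
      · rw [hU, ← Subgroup.map_le_iff_le_comap]
        exact hW₂V
      · intro u hu
        obtain ⟨w, hw, he⟩ := hVW hu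
        have := hinj he
        rwa [← this]
      · intro x hx
        -- `τ x` acts quadratically on `V`
        have hxV : QuadE V (τ x) := by
          intro v hv
          obtain ⟨u, hu, rfl⟩ : v ∈ U.map τ := by rw [hUV]; exact hv
          rw [← map_commutatorElement, ← map_commutatorElement, hx u hu, map_one]
        have hst := hτ.2.2.2.2.2 V hVΩ (τ x) (subgroup_of_quadE hxV)
        set C := centralizer (V : Set H) with hC
        haveI hCn : C.Normal := Subgroup.normal_centralizer
        let π := QuotientGroup.mk' C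
        have hπ : Function.Surjective π := QuotientGroup.mk'_surjective C
        have hcore : ∀ h : H, ∃ y₀ : S, π (τ y₀) = π (h * τ x * h⁻¹) := by
          intro h
          haveI hOn : (pCore p (H ⧸ C)).Normal := CfsgLib.PLocal.pCore_normal'
          have h1 : π (h * τ x * h⁻¹) ∈ pCore p (H ⧸ C) := by
            rw [map_mul, map_mul, map_inv]
            exact hOn.conj_mem _ hst _
          have h2 := CfsgLib.PLocal.normal_le_sylow hOn CfsgLib.PLocal.pCore_isPGroup (P.mapSurjective hπ) h1
          obtain ⟨z, hz, hze⟩ := h2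
          have hz' : z ∈ τ.range := by rw [← hP]; exact hz
          obtain ⟨y₀, rfl⟩ := hz'
          exact ⟨y₀, hze⟩
        have hcomm : ∀ h : H, ∀ w ∈ W₂, (h * τ x * h⁻¹) * τ w = τ w * (h * τ x * h⁻¹) := by
          intro h w hw
          obtain ⟨y₀, hy₀⟩ := hcore h
          set a := h * τ x * h⁻¹ with ha
          set c := a⁻¹ * τ y₀ with hc
          have hcC : c ∈ C := by
            rw [hc, ← QuotientGroup.eq]
            exact hy₀.symm
          have hcv : ∀ v ∈ V, c * v = v * c := fun v hv => (Subgroup.mem_centralizer_iff.mp hcC v hv).symm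
          have hbac : τ y₀ = a * c := by rw [hc]; group
          have hcomm1 : ∀ v ∈ V, ⁅v, τ y₀⁆ = ⁅v, a⁆ := by
            intro v hv
            rw [hbac]
            simp only [commutatorElement_def]
            calc v * (a * c) * v⁻¹ * (a * c)⁻¹ = v * a * (c * v⁻¹) * c⁻¹ * a⁻¹ := by group
              _ = v * a * (v⁻¹ * c) * c⁻¹ * a⁻¹ := by
                  rw [show c * v⁻¹ = v⁻¹ * c from ((show Commute c v from hcv v hv).inv_right).eq]
              _ = _ := by group
          have hcommV : ∀ v ∈ V, ⁅v, a⁆ ∈ V := by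
            intro v hv
            rw [commutatorElement_def]
            have e : v * a * v⁻¹ * a⁻¹ = v * (a * v⁻¹ * a⁻¹) := by group
            rw [e]
            exact mul_mem hv (hVn.conj_mem _ (inv_mem hv) a)
          have hquad_a : ∀ v ∈ V, ⁅⁅v, a⁆, a⁆ = 1 := by
            intro v hv
            have h1 := hxV _ (hVn.conj_mem v hv h⁻¹)
            have e : ⁅⁅v, a⁆, a⁆ = h * ⁅⁅h⁻¹ * v * h⁻¹⁻¹, τ x⁆, τ x⁆ * h⁻¹ := by
              rw [ha]
              simp only [commutatorElement_def]
              group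
            rw [e, h1]
            group
          have hquad_b : QuadE V (τ y₀) := by
            intro v hv
            rw [hcomm1 v hv, hcomm1 _ (hcommV v hv)]
            exact hquad_a v hv
          have hquadU : QuadE W₂ y₀ := by
            intro u hu
            apply hinj
            rw [map_one, map_commutatorElement, map_commutatorElement]
            exact hquad_b _ (hW₂V ⟨u, hu, rfl⟩)
          have h5 := hW₂F.2.2 y₀ hquadU w hw
          have h6 : τ y₀ * τ w = τ w * τ y₀ := by rw [← map_mul, ← map_mul, h5]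
          have h7 : c * τ w = τ w * c := hcv _ (hW₂V ⟨w, hw, rfl⟩)
          rw [hbac] at h6
          have h8 : a * τ w * c = τ w * a * c := by
            calc a * τ w * c = a * (τ w * c) := by group
              _ = a * (c * τ w) := by rw [h7]
              _ = a * c * τ w := by group
              _ = τ w * (a * c) := h6
              _ = _ := by group
          exact mul_right_cancel h8
        have hVx : V ≤ centralizer ({τ x} : Set H) := by
          rw [hV, Subgroup.normalClosure, Subgroup.closure_le]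
          intro v hv
          obtain ⟨w', hw', hconj⟩ := Group.mem_conjugatesOfSet_iff.mp hv
          obtain ⟨w, hw, rfl⟩ := hw'
          obtain ⟨g, rfl⟩ := isConj_iff.mp hconj
          rw [SetLike.mem_coe, Subgroup.mem_centralizer_iff]
          intro z hz
          rw [Set.mem_singleton_iff.mp hz]
          have h1 := hcomm g⁻¹ w hw
          have e1 : g⁻¹ * τ x * g⁻¹⁻¹ = g⁻¹ * τ x * g := by group
          rw [e1] at h1
          calc τ x * (g * τ w * g⁻¹) = g * ((g⁻¹ * τ x * g) * τ w) * g⁻¹ := by group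
            _ = g * (τ w * (g⁻¹ * τ x * g)) * g⁻¹ := by rw [h1]
            _ = _ := by group
        intro u hu
        have h1 : τ u ∈ V := hu
        have h2 := Subgroup.mem_centralizer_iff.mp (hVx h1) (τ x) rfl
        apply hinj
        rw [map_mul, map_mul]
        exact h2
    have hUW₂ : U ≤ W₂ := le_sSup hUF
    have hVe : V = W₂.map τ := by
      apply le_antisymm _ hW₂V
      rw [← hUV]
      exact Subgroup.map_mono hUW₂
    rw [← hVe]
    exact hVn
  have hWW₂ : W ≤ W₂ := sInf_le hfam
  have hWe : W = W₂ := le_antisymm hWW₂ hW₂F.2.1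
  intro u hu
  exact hW₂F.2.2 x (hWe ▸ hq) u (hWe ▸ hu)

end W

end CfsgLib.OOL
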