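import Cfsg.Agent.Lib.OOL.WS

set_option autoImplicit false
set_option linter.unusedSectionVars false
set_option linter.style.haveILetI false
set_option linter.unusedVariables false

open Pointwise
open scoped commutatorElement IsMulCommutative
open Subgroup Cfsg

namespace CfsgLib.OOL

universe u

section Repl

variable {T : Type u} [Group T] [Finite T] {p : ℕ} [hpf : Fact p.Prime]

theorem rstar_exp (A B : Subgroup T) [hBn : B.Normal] (hAe : ∀ a ∈ A, a ^ p = 1) (hBe : ∀ a ∈ B, a ^ p = 1)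
    (b : T) (hb : b ∈ B) (hc : IsMulCommutative (rstar A b)) : ∀ x ∈ rstar A b, x ^ p = 1 := by
  have hcomm : ∀ x ∈ rstar A b, ∀ y ∈ rstar A b, x * y = y * x := fun x hx y hy =>
    congrArg Subtype.val (hc.is_comm.comm ⟨x, hx⟩ ⟨y, hy⟩)
  have key : ∀ x, x ∈ rstar A b → x ∈ closure (((A ⊓ A.map (MulAut.conj (b⁻¹)).toMonoidHom : Subgroup T) : Set T) ∪
      {g : T | ∃ a ∈ A, g = a * b⁻¹ * a⁻¹ * b}) → x ^ p = 1 := by
    intro x hxr hx
    have hle : closure (((A ⊓ A.map (MulAut.conj (b⁻¹)).toMonoidHom : Subgroup T) : Set T) ∪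
      {g : T | ∃ a ∈ A, g = a * b⁻¹ * a⁻¹ * b}) ≤ rstar A b := by
      rw [Subgroup.closure_union, Subgroup.closure_eq]
      exact le_refl _
    induction hx using Subgroup.closure_induction with
    | mem y hy =>
      rcases hy with hy | ⟨a, ha, rfl⟩
      · exact hAe y (mem_inf.mp hy).1
      · apply hBe
        have e : a * b⁻¹ * a⁻¹ * b = (a * b⁻¹ * a⁻¹) * b := rfl
        rw [e]
        exact mul_mem (hBn.conj_mem _ (inv_mem hb) a) hb
    | one => simp
    | mul y z hy hz ihy ihz =>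
      have h1 : Commute y z := hcomm y (hle hy) z (hle hz)
      rw [h1.mul_pow, ihy (hle hy), ihz (hle hz), one_mul]
    | inv y hy ih => rw [inv_pow, ih (hle hy), inv_one]
  intro x hx
  apply key x hx
  have : rstar A b = closure (((A ⊓ A.map (MulAut.conj (b⁻¹)).toMonoidHom : Subgroup T) : Set T) ∪
      {g : T | ∃ a ∈ A, g = a * b⁻¹ * a⁻¹ * b}) := by
    rw [Subgroup.closure_union, Subgroup.closure_eq]
    rfl
  rw [← this]
  exact hx

/-- Replacement for elementary abelian normal subgroups, any prime. -/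
theorem repl_elem_T (hT : IsPGroup p T) (B : Subgroup T) [hBn : B.Normal] (hBe : IsElementaryAbelian p B)
    (hex : ∃ U ∈ maxElementaryAbelianSubgroups p T, ¬ B ≤ U) :
    ∃ A ∈ maxElementaryAbelianSubgroups p T, ¬ B ≤ A ∧ B ≤ normalizer (A : Set T) := by
  classical
  let Fam' : Set (Subgroup T) := {U | U ∈ maxElementaryAbelianSubgroups p T ∧ ¬ B ≤ U}
  have hne : Fam'.Nonempty := by
    obtain ⟨U, h1, h2⟩ := hex
    exact ⟨U, h1, h2⟩
  obtain ⟨A, ⟨hA, hBnot⟩, hAmax⟩ := Set.exists_max_image Fam' (fun U => Nat.card (U ⊓ B : Subgroup T)) (Set.toFinite _) hne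
  refine ⟨A, hA, hBnot, ?_⟩
  by_contra hnot
  obtain ⟨b, hb, hbN, hbA⟩ := CfsgLib.PLocal.glauberman_exists_element hT B A hnot
  have hBcomm : ⁅B, B⁆ = ⊥ := by
    rw [eq_bot_iff, Subgroup.commutator_le]
    intro x hx y hy
    rw [Subgroup.mem_bot, commutatorElement_eq_one_iff_mul_comm]
    exact congrArg Subtype.val (hBe.1.is_comm.comm ⟨x, hx⟩ ⟨y, hy⟩)
  obtain ⟨h1, h2, h3, h4, h5, -, -, -, -, -⟩ := glauberman_main hT B (fun _ => hBe.1) A hA.1.1
    (by rw [hBcomm]; exact bot_le) b hb hbN hbA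
  have hmem : rstar A b ∈ Fam' := by
    refine ⟨⟨⟨h2, rstar_exp A B hA.1.2 hBe.2 b hb h2⟩, fun C hC => ?_⟩, fun h => ?_⟩
    · rw [h1]
      exact hA.2 C hC
    · have : B ≤ rstar A b ⊓ B := le_inf h le_rfl
      exact absurd (lt_of_lt_of_le h5 this) (lt_irrefl _)
  have h7 := hAmax _ hmem
  have h8 : Nat.card (A ⊓ B : Subgroup T) < Nat.card (rstar A b ⊓ B : Subgroup T) := by
    apply lt_of_le_of_ne (Subgroup.card_le_of_le h4.le)
    intro h9
    exact h4.ne (Subgroup.eq_of_le_of_card_ge h4.le (le_of_eq h9.symm))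
  exact absurd h7 (not_le.mpr h8)

end Repl

section ReplG

variable {G : Type u} [Group G] [Finite G] {p : ℕ} [hpf : Fact p.Prime]

theorem repl_elem_G {S : Subgroup G} (hS : IsPGroup p S) (D : Subgroup G) (hDS : D ≤ S)
    (hDn : ∀ s ∈ S, ∀ b ∈ D, s * b * s⁻¹ ∈ D) (hDe : IsElementaryAbelian p D)
    (hex : ∃ U ∈ CfsgLib.PLocal.maxIn p S, ¬ D ≤ U) :
    ∃ A ∈ CfsgLib.PLocal.maxIn p S, ¬ D ≤ A ∧ D ≤ normalizer (A : Set G) := by
  classical
  let B : Subgroup S := D.subgroupOf S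
  have hBmap : B.map S.subtype = D := Subgroup.map_subgroupOf_eq_of_le hDS
  haveI hBn : B.Normal := ⟨fun b hb s => hDn s.1 s.2 b.1 hb⟩
  have hBe : IsElementaryAbelian p B :=
    CfsgLib.PLocal.elemAb_of_map_injective S.subtype S.subtype_injective (by rwa [hBmap])
  obtain ⟨U, hU, hnot⟩ := hex
  obtain ⟨A, hA, h1, h2⟩ := repl_elem_T hS B hBe ⟨U.subgroupOf S, CfsgLib.PLocal.subgroupOf_mem_max_of_maxIn hU, by
    intro h
    apply hnot
    intro d hd
    exact h (show (⟨d, hDS hd⟩ : S) ∈ B from hd)⟩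
  refine ⟨A.map S.subtype, CfsgLib.PLocal.map_mem_maxIn hA, ?_, ?_⟩
  · intro h
    apply h1
    intro b hb
    obtain ⟨a, ha, he⟩ := h (show b.1 ∈ D from hb)
    have : a = b := Subtype.ext he
    rwa [← this]
  · intro d hd
    rw [Subgroup.mem_normalizer_iff]
    have hb : (⟨d, hDS hd⟩ : S) ∈ B := hd
    have h3 := Subgroup.mem_normalizer_iff.mp (h2 hb)
    intro x
    constructor
    · rintro ⟨a, ha, rfl⟩
      exact ⟨_, (h3 a).mp ha, rfl⟩
    · rintro ⟨a, ha, he⟩
      have he' : (a : G) = d * x * d⁻¹ := he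
      have hxS : x ∈ S := by
        have e : x = d⁻¹ * (a : G) * d := by
          rw [he']
          group
        rw [e]
        exact mul_mem (mul_mem (inv_mem (hDS hd)) a.2) (hDS hd)
      have h4 : (⟨d, hDS hd⟩ : S) * ⟨x, hxS⟩ * (⟨d, hDS hd⟩ : S)⁻¹ = a := Subtype.ext he'.symm
      have h5 := (h3 ⟨x, hxS⟩).mpr (by rw [h4]; exact ha)
      exact ⟨_, h5, rfl⟩

variable {Fam : Subgroup G → Set (Subgroup G)}

/-- The abstract form of the normality of `W(S)`. -/
theorem w_abstract (hF : ZJFam G Fam) (S : Sylow p G)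
    (hc : centralizer (pCore p G : Set G) ≤ pCore p G)
    (hst : ∀ (P : Subgroup G) [P.Normal], IsElementaryAbelian p P → IsPStableOn p P)
    (E : Subgroup G) (hE1 : E ≤ sSup (Fam (S : Subgroup G)) ⊓ centralizer ((sSup (Fam (S : Subgroup G)) : Subgroup G) : Set G))
    (hEexp : ∀ e ∈ E, e ^ p = 1)
    (hNJE : normalizer ((sSup (Fam (S : Subgroup G)) : Subgroup G) : Set G) ≤ normalizer (E : Set G))
    (hET : E ≤ pCore p G)
    (hE5 : ∀ d ∈ (S : Subgroup G), QuadE E d → ∀ u ∈ E, d * u = u * d)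
    (hrepl : ∀ D : Subgroup G, D.Normal → D ≤ (S : Subgroup G) → IsElementaryAbelian p D →
      (∃ A ∈ Fam (S : Subgroup G), ¬ D ≤ A) → ∃ A ∈ Fam (S : Subgroup G), ¬ D ≤ A ∧ D ≤ normalizer (A : Set G))
    (habsorb : ∀ A ∈ Fam (S : Subgroup G), ∀ D : Subgroup G, D ≤ (S : Subgroup G) → (∀ d ∈ D, d ^ p = 1) →
      (∀ v ∈ D, ∀ a ∈ A, v * a = a * v) → D ≤ A) : E.Normal := by
  classical
  have hpp := hpf.out
  set Sg : Subgroup G := (S : Subgroup G) with hSg
  set J := sSup (Fam Sg) with hJ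
  have hEdef : E ≤ J ⊓ centralizer (J : Set G) := hE1
  haveI hTn : (pCore p G).Normal := CfsgLib.PLocal.pCore_normal'
  have hTp : IsPGroup p (pCore p G) := CfsgLib.Solv.pCore_isPGroup p
  have hTS : pCore p G ≤ Sg := CfsgLib.PLocal.pCore_le_sylow S
  have hJS : J ≤ Sg := sSup_le (hF.le Sg)
  have hAJ : ∀ A ∈ Fam Sg, A ≤ J := fun A hA => le_sSup hA
  have hEJ : E ≤ J := hE1.trans inf_le_left
  have hEc : ∀ e ∈ E, ∀ a ∈ J, a * e = e * a := fun e he a ha =>
    Subgroup.mem_centralizer_iff.mp (mem_inf.mp (hE1 he)).2 a ha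
  have hEab : ∀ x ∈ E, ∀ y ∈ E, x * y = y * x := fun x hx y hy => (hEc x hx y (hEJ hy)).symm
  have hSJ : Sg ≤ normalizer (J : Set G) := Subgroup.le_normalizer.trans (hF.norm Sg)
  have hSE : Sg ≤ normalizer (E : Set G) := hSJ.trans hNJE
  have hES : E ≤ Sg := hEJ.trans hJS
  -- the normal core
  set Y := E.normalCore with hY
  haveI hYn : Y.Normal := Subgroup.normalCore_normal E
  have hYE : Y ≤ E := Subgroup.normalCore_le E
  by_contra hnot
  have hne : Y ≠ E := by
    intro h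
    apply hnot
    rw [← h]
    exact hYn
  obtain ⟨x, hxE, hxY, hxS, hxp⟩ := exists_central_mod (p := p) (P := Sg) (N := Y) (D := E) S.isPGroup' hYE hne hES
    (by rw [Subgroup.normalizer_eq_top_iff.mpr hYn]; exact le_top) hSE
  set D := normalClosure (insert x (Y : Set G)) with hD
  haveI hDn : D.Normal := Subgroup.normalClosure_normal
  have hxD : x ∈ D := Subgroup.subset_normalClosure (Set.mem_insert _ _)
  have hYD : Y ≤ D := fun y hy => Subgroup.subset_normalClosure (Set.mem_insert_of_mem _ hy)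
  have hcl : ∀ M : Subgroup G, M.Normal → x ∈ M → Y ≤ M → D ≤ M := by
    intro M hM h1 h2
    apply Subgroup.normalClosure_le_normal
    rintro z (rfl | hz)
    · exact h1
    · exact h2 hz
  have hDT : D ≤ pCore p G := hcl _ hTn (hET hxE) (hYE.trans hET)
  have hDS : D ≤ Sg := hDT.trans hTS
  -- `[D, T] ≤ Y`
  have hDT2 : ∀ d ∈ D, ∀ t ∈ pCore p G, ⁅t, d⁆ ∈ Y := by
    have h1 : D ≤ sectionKernel (pCore p G) Y := by
      haveI : (sectionKernel (pCore p G) Y).Normal := sectionKernel_normal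
      apply hcl _ this
      · rw [mem_sectionKernel_iff]
        intro t ht
        rw [← commutatorElement_inv]
        exact inv_mem (hxS t (hTS ht))
      · intro y hy
        rw [mem_sectionKernel_iff]
        intro t _
        rw [commutatorElement_def]
        exact mul_mem (hYn.conj_mem y hy t) (inv_mem hy)
    intro d hd t ht
    exact mem_sectionKernel_iff.mp (h1 hd) t ht
  have hDD : ∀ a ∈ D, ∀ b ∈ D, ⁅a, b⁆ ∈ Y := fun a ha b hb => hDT2 b hb a (hDT ha)
  -- `Y` is central in `D`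
  have hDY : D ≤ centralizer (Y : Set G) := by
    apply hcl _ inferInstance
    · exact Subgroup.mem_centralizer_iff.mpr (fun y hy => (hEab x hxE y (hYE hy)).symm)
    · intro y hy
      exact Subgroup.mem_centralizer_iff.mpr (fun y' hy' => hEab y' (hYE hy') y (hYE hy))
  have hYc : ∀ y ∈ Y, ∀ d ∈ D, y * d = d * y := fun y hy d hd => Subgroup.mem_centralizer_iff.mp (hDY hd) y hy
  -- `d ^ p ∈ Y`
  have hDp : ∀ d ∈ D, d ^ p ∈ Y := by
    let M : Subgroup G :=
      { carrier := {d | d ∈ D ∧ d ^ p ∈ Y}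
        mul_mem' := by
          rintro a b ⟨ha, ha'⟩ ⟨hb, hb'⟩
          refine ⟨mul_mem ha hb, ?_⟩
          apply (QuotientGroup.eq_one_iff _).mp
          have h1 : QuotientGroup.mk' Y ⁅a, b⁆ = 1 := (QuotientGroup.eq_one_iff _).mpr (hDD a ha b hb)
          rw [map_commutatorElement, commutatorElement_eq_one_iff_mul_comm] at h1
          have hc : Commute (QuotientGroup.mk' Y a) (QuotientGroup.mk' Y b) := h1
          have h2 : QuotientGroup.mk' Y ((a * b) ^ p) = 1 := by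
            rw [map_pow, map_mul, hc.mul_pow, ← map_pow, ← map_pow]
            have h3 : QuotientGroup.mk' Y (a ^ p) = 1 := (QuotientGroup.eq_one_iff _).mpr ha'
            have h4 : QuotientGroup.mk' Y (b ^ p) = 1 := (QuotientGroup.eq_one_iff _).mpr hb'
            rw [h3, h4, one_mul]
          exact h2
        one_mem' := ⟨one_mem _, by rw [one_pow]; exact one_mem _⟩
        inv_mem' := by
          rintro a ⟨ha, ha'⟩
          exact ⟨inv_mem ha, by rw [inv_pow]; exact inv_mem ha'⟩ }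
    have hMn : M.Normal := ⟨by
      rintro a ⟨ha, ha'⟩ g
      refine ⟨hDn.conj_mem a ha g, ?_⟩
      rw [conj_pow]
      exact hYn.conj_mem _ ha' g⟩
    have hle : D ≤ M := hcl M hMn ⟨hxD, hxp⟩ (fun y hy => ⟨hYD hy, pow_mem hy p⟩)
    exact fun d hd => (hle hd).2
  have hDcp : ∀ a ∈ D, ∀ b ∈ D, ⁅a, b⁆ ^ p = 1 := by
    intro a ha b hb
    have h1 := comm_pow_left a b (hYc _ (hDD a ha b hb) a ha).symm p
    rw [← h1, commutatorElement_eq_one_iff_mul_comm]
    exact hYc _ (hDp a ha) b hb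
  -- `D` centralizes `E`
  have hDcE : ∀ d ∈ D, ∀ u ∈ E, d * u = u * d := by
    intro d hd
    apply hE5 d (hDS hd)
    intro u hu
    rw [commutatorElement_eq_one_iff_mul_comm]
    exact hYc _ (hDT2 d hd u (hET hu)) d hd
  have hDab : ∀ a ∈ D, ∀ b ∈ D, a * b = b * a := by
    have hle : D ≤ centralizer (D : Set G) := by
      apply hcl _ inferInstance
      · rw [Subgroup.mem_centralizer_iff]
        intro d hd
        exact hDcE d hd x hxE
      · intro y hy
        rw [Subgroup.mem_centralizer_iff]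
        intro d hd
        exact (hYc y hy d hd).symm
    intro a ha b hb
    exact Subgroup.mem_centralizer_iff.mp (hle hb) a ha
  have hDexp : ∀ d ∈ D, d ^ p = 1 := by
    let M : Subgroup G :=
      { carrier := {d | d ∈ D ∧ d ^ p = 1}
        mul_mem' := by
          rintro a b ⟨ha, ha'⟩ ⟨hb, hb'⟩
          refine ⟨mul_mem ha hb, ?_⟩
          have hc : Commute a b := hDab a ha b hb
          rw [hc.mul_pow, ha', hb', one_mul]
        one_mem' := ⟨one_mem _, by rw [one_pow]⟩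
        inv_mem' := by
          rintro a ⟨ha, ha'⟩
          exact ⟨inv_mem ha, by rw [inv_pow, ha', inv_one]⟩ }
    have hMn : M.Normal := ⟨by
      rintro a ⟨ha, ha'⟩ g
      refine ⟨hDn.conj_mem a ha g, ?_⟩
      rw [conj_pow, ha', mul_one, mul_inv_cancel]⟩
    have hle : D ≤ M := hcl M hMn ⟨hxD, hEexp x hxE⟩ (fun y hy => ⟨hYD hy, hEexp y (hYE hy)⟩)
    exact fun d hd => (hle hd).2
  have hDe : IsElementaryAbelian p D :=
    ⟨⟨⟨fun a b => Subtype.ext (hDab a.1 a.2 b.1 b.2)⟩⟩, hDexp⟩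
  -- the kernel of the action on `D / Y`
  set C₁ := sectionKernel D Y with hC₁
  haveI hC₁n : C₁.Normal := sectionKernel_normal
  have hC₁m : ∀ g, g ∈ C₁ ↔ ∀ d ∈ D, ⁅d, g⁆ ∈ Y := fun g => mem_sectionKernel_iff
  have hxC : ∀ c ∈ C₁, ⁅x, c⁆ ∈ Y := fun c hc => (hC₁m c).mp hc x hxD
  -- no normal `p`-subgroups modulo `C₁`
  have hR : ∀ R : Subgroup G, R.Normal → (∀ r ∈ R, ∃ k : ℕ, r ^ (p ^ k) ∈ C₁) → R ≤ C₁ := by
    intro R hRn hRp
    let π := QuotientGroup.mk' C₁
    have hπs : Function.Surjective π := QuotientGroup.mk'_surjective C₁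
    haveI hRb : (R.map π).Normal := Subgroup.Normal.map hRn π hπs
    have hRbp : IsPGroup p (R.map π) := by
      rintro ⟨_, r, hr, rfl⟩
      obtain ⟨k, hk⟩ := hRp r hr
      refine ⟨k, Subtype.ext ?_⟩
      have h1 : π (r ^ (p ^ k)) = 1 := (QuotientGroup.eq_one_iff _).mpr hk
      rw [map_pow] at h1
      exact h1
    let Sb : Sylow p (G ⧸ C₁) := S.mapSurjective hπs
    have hle := CfsgLib.PLocal.normal_le_sylow hRb hRbp Sb
    have hrx : ∀ r ∈ R, ⁅x, r⁆ ∈ Y := by
      intro r hr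
      have h1 : π r ∈ (Sb : Subgroup (G ⧸ C₁)) := hle ⟨r, hr, rfl⟩
      obtain ⟨s, hs, hsr⟩ := h1
      have hsr' : (s : G ⧸ C₁) = (r : G ⧸ C₁) := hsr
      rw [QuotientGroup.eq] at hsr'
      have h2 := hxC _ hsr'
      have h3 := hxS s hs
      have e : ⁅x, r⁆ = ⁅x, s⁆ * (s * ⁅x, s⁻¹ * r⁆ * s⁻¹) := by
        simp only [commutatorElement_def]; group
      rw [e]
      exact mul_mem h3 (hYn.conj_mem _ h2 s)
    have hSK : D ≤ sectionKernel R Y := by
      haveI : (sectionKernel R Y).Normal := sectionKernel_normal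
      apply hcl _ this
      · rw [mem_sectionKernel_iff]
        intro r hr
        rw [← commutatorElement_inv]
        exact inv_mem (hrx r hr)
      · intro y hy
        rw [mem_sectionKernel_iff]
        intro t _
        rw [commutatorElement_def]
        exact mul_mem (hYn.conj_mem y hy t) (inv_mem hy)
    intro r hr
    rw [hC₁m]
    intro d hd
    rw [← commutatorElement_inv]
    exact inv_mem (mem_sectionKernel_iff.mp (hSK hd) r hr)
  -- quadratic action on `D`
  have hquad : ∀ A ∈ Fam Sg, D ≤ normalizer (A : Set G) → A ≤ C₁ := by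
    intro A hA hVA a ha
    have hq := quad_of_normalized hVA (hF.ab Sg A hA) ha
    have h1 := hst D hDe a hq
    haveI hcV : (centralizer (D : Set G)).Normal := inferInstance
    haveI hP : (pCore p (G ⧸ centralizer (D : Set G))).Normal := CfsgLib.PLocal.pCore_normal'
    set R := (pCore p (G ⧸ centralizer (D : Set G))).comap (QuotientGroup.mk' (centralizer (D : Set G))) with hRdef
    have hRn : R.Normal := Subgroup.Normal.comap hP _
    refine hR R hRn ?_ h1
    intro r hr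
    obtain ⟨m, hm⟩ := (CfsgLib.Solv.pCore_isPGroup p : IsPGroup p (pCore p (G ⧸ centralizer (D : Set G)))) ⟨_, hr⟩
    have hm' : r ^ (p ^ m) ∈ centralizer (D : Set G) := by
      apply (QuotientGroup.eq_one_iff _).mp
      have h2 : (QuotientGroup.mk' (centralizer (D : Set G)) r) ^ (p ^ m) = 1 := congrArg Subtype.val hm
      rw [← map_pow] at h2
      exact h2
    refine ⟨m, ?_⟩
    rw [hC₁m]
    intro d hd'
    have h3 := Subgroup.mem_centralizer_iff.mp hm' d hd'
    rw [show ⁅d, r ^ (p ^ m)⁆ = 1 from commutatorElement_eq_one_iff_mul_comm.mpr h3]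
    exact one_mem _
  -- the Frattini argument
  have hfrat : ∀ g : G, ∃ n ∈ normalizer ((Sg ⊓ C₁ : Subgroup G) : Set G), ∃ c ∈ C₁, g = n * c := by
    obtain ⟨Q, hQ⟩ := CfsgLib.PLocal.exists_sylow_inf_normal S hC₁n
    have h1 := Sylow.normalizer_sup_eq_top (p := p) (N := C₁) Q
    have h2 : (Q : Subgroup C₁).map C₁.subtype = Sg ⊓ C₁ := hQ
    rw [h2] at h1
    intro g
    have h3 : g ∈ ((normalizer ((Sg ⊓ C₁ : Subgroup G) : Set G) ⊔ C₁ : Subgroup G) : Set G) := by
      rw [h1]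
      exact mem_top g
    rw [Subgroup.mul_normal] at h3
    obtain ⟨n, hn, c, hc, hnc⟩ := h3
    exact ⟨n, hn, c, hc, hnc.symm⟩
  have hxconjE : ∀ c ∈ C₁, c * x * c⁻¹ ∈ E := by
    intro c hc
    have h1 := inv_mem (hxC c hc)
    rw [commutatorElement_inv] at h1
    have e : c * x * c⁻¹ = ⁅c, x⁆ * x := by
      simp only [commutatorElement_def]; group
    rw [e]
    exact mul_mem (hYE h1) hxE
  -- elements in `C₁`
  have hcent : ∀ A₁ ∈ Fam Sg, A₁ ≤ C₁ → ∀ d ∈ D, ∀ a ∈ A₁, a * d = d * a := by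
    intro A₁ hA₁ hle d hd a ha
    have hA₁X : A₁ ≤ Sg ⊓ C₁ := le_inf (hF.le Sg A₁ hA₁) hle
    obtain ⟨h1, hsub⟩ := hF.sub _ Sg inf_le_left A₁ hA₁ hA₁X
    set JX := sSup (Fam (Sg ⊓ C₁)) with hJX
    have hJXJ : JX ≤ J := sSup_le (fun A hA => le_sSup (hsub hA))
    have hEM : E ≤ centralizer (JX : Set G) := by
      intro e he
      exact Subgroup.mem_centralizer_iff.mpr (fun j hj => hEc e he j (hJXJ hj))
    have hconj : ∀ g, g * x * g⁻¹ ∈ centralizer (JX : Set G) := by
      intro g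
      obtain ⟨n, hn, c, hc, rfl⟩ := hfrat g
      have h2 := normalizes_centralizer (hF.norm _ hn) (hEM (hxconjE c hc))
      have e : n * c * x * (n * c)⁻¹ = n * (c * x * c⁻¹) * n⁻¹ := by group
      rw [e]
      exact h2
    have hDM := normalClosure_insert_le (hYE.trans hEM) hconj
    exact Subgroup.mem_centralizer_iff.mp (hDM hd) a (le_sSup h1 ha)
  -- `D` lies in all members of the family
  have hVA : ∀ A ∈ Fam Sg, D ≤ A := by
    by_contra hcon
    push Not at hcon
    obtain ⟨A, hA, hVnot⟩ := hcon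
    obtain ⟨A₁, hA₁, h1, h2⟩ := hrepl D hDn hDS hDe ⟨A, hA, hVnot⟩
    have hle := hquad A₁ hA₁ h2
    apply h1
    apply habsorb A₁ hA₁ D hDS hDexp
    intro v hv a ha
    exact (hcent A₁ hA₁ hle v hv a ha).symm
  have hAC : ∀ A ∈ Fam Sg, A ≤ C₁ := by
    intro A hA a ha
    rw [hC₁m]
    intro d hd
    rw [show ⁅d, a⁆ = 1 from commutatorElement_eq_one_iff_mul_comm.mpr (hF.ab Sg A hA d (hVA A hA hd) a ha)]
    exact one_mem _
  have hJC : J ≤ C₁ := sSup_le hAC
  have hsame : Fam (Sg ⊓ C₁) = Fam Sg := by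
    obtain ⟨A₀, hA₀⟩ := hF.ne Sg
    apply Set.Subset.antisymm
    · exact (hF.sub _ Sg inf_le_left A₀ hA₀ (le_inf (hF.le Sg A₀ hA₀) (hAC A₀ hA₀))).2
    · intro A hA
      exact (hF.sub _ Sg inf_le_left A hA (le_inf (hF.le Sg A hA) (hAC A hA))).1
  have hNE : normalizer ((Sg ⊓ C₁ : Subgroup G) : Set G) ≤ normalizer (E : Set G) := by
    have h1 := hF.norm (Sg ⊓ C₁)
    rw [hsame] at h1
    exact h1.trans hNJE
  have hconjE : ∀ g, g * x * g⁻¹ ∈ E := by
    intro g
    obtain ⟨n, hn, c, hc, rfl⟩ := hfrat g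
    have h2 := (mem_normalizer_iff.mp (hNE hn) _).mp (hxconjE c hc)
    have e : n * c * x * (n * c)⁻¹ = n * (c * x * c⁻¹) * n⁻¹ := by group
    rw [e]
    exact h2
  have hDE := normalClosure_insert_le hYE hconjE
  have hDY' : D ≤ Y := Subgroup.normal_le_normalCore.mpr hDE
  exact hxY (hDY' hxD)


end ReplG

end CfsgLib.OOL
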