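import Cfsg.Agent.Lib.OOL.WS2

set_option autoImplicit false
set_option linter.unusedSectionVars false
set_option linter.style.haveILetI false
set_option linter.unusedVariables false

open Pointwise
open scoped commutatorElement IsMulCommutative
open Subgroup Cfsg

namespace CfsgLib.OOL

universe u

section Core

variable {G : Type u} [Group G] [Finite G] {p : ℕ} [hpf : Fact p.Prime]

/-- The kernel of the action on `T / Φ(T)` is a `p`-group if `C(T) ≤ T`. -/
theorem sectionKernel_pgroup (T : Subgroup G) [hTn : T.Normal] (hT : IsPGroup p T)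
    (hc : centralizer (T : Set G) ≤ T) [hN : ((frattini T).map T.subtype).Normal] :
    IsPGroup p (sectionKernel T ((frattini T).map T.subtype)) := by
  classical
  set K := sectionKernel T ((frattini T).map T.subtype) with hK
  rintro ⟨g, hg⟩
  obtain ⟨u, v, huv, ⟨k, hk⟩, hv⟩ := exists_p_parts hpf.out g
  set t := g ^ v with ht
  have htK : t ∈ K := pow_mem hg v
  have hzK : zpowers t ≤ K := Subgroup.zpowers_le.mpr htK
  have hFp : IsPGroup p (frattini T) := hT.to_subgroup _
  have hcop : (Nat.card (zpowers t)).Coprime (Nat.card (frattini T)) := by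
    rw [Nat.card_zpowers]
    obtain ⟨l, hl⟩ := IsPGroup.iff_card.mp hFp
    rw [hl]
    exact Nat.Coprime.pow_right l hv
  have h1 := CfsgLib.Solv.frattini_coprime_trivial (zpowers t) T
    (by rw [Subgroup.normalizer_eq_top_iff.mpr hTn]; exact le_top) hcop (by
      intro a ha k hk
      have h2 := mem_sectionKernel_iff.mp (hzK ha) k hk
      have e : a * k * a⁻¹ * k⁻¹ = ⁅k, a⁆⁻¹ := by
        simp only [commutatorElement_def]; group
      rw [e]
      exact inv_mem h2)
  have htC : t ∈ centralizer (T : Set G) := h1 (mem_zpowers t)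
  have htT : t ∈ T := hc htC
  have ht1 : t = 1 := by
    have h3 := hT.to_le (le_refl T)
    obtain ⟨l, hl⟩ := h3 ⟨t, htT⟩
    have h4 : t ^ p ^ l = 1 := congrArg Subtype.val hl
    have h5 := orderOf_dvd_of_pow_eq_one h4
    have h6 : orderOf t ∣ Nat.gcd (orderOf t) (p ^ l) := Nat.dvd_gcd (dvd_refl _) h5
    rw [(Nat.Coprime.pow_right l hv).gcd_eq_one, Nat.dvd_one, orderOf_eq_one_iff] at h6
    exact h6
  rw [ht1, mul_one] at huv
  refine ⟨k, Subtype.ext ?_⟩
  change g ^ p ^ k = 1
  rw [huv]
  exact hk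

/-- Elements acting trivially modulo a section kernel which is a `p`-group lie in `O_p(G)`. -/
theorem mem_core_of_section (T N : Subgroup G) [hNn : N.Normal] (hst : IsPStableOnSection p T N)
    (hT : T.Normal)
    (hKp : IsPGroup p (sectionKernel T N)) {a : G} (hq : ⁅⁅T, zpowers a⁆, zpowers a⁆ ≤ N) : a ∈ pCore p G := by
  classical
  obtain ⟨D, hDn, hKD, ⟨k, hk⟩, haD⟩ := hst a hq
  haveI := hT
  haveI hKn : (sectionKernel T N).Normal := sectionKernel_normal
  have hDp : IsPGroup p D := by
    rw [IsPGroup.iff_orderOf]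
    rintro ⟨d, hd⟩
    have h1 : (⟨d, hd⟩ : D) ^ ((sectionKernel T N).subgroupOf D).index ∈ (sectionKernel T N).subgroupOf D :=
      Subgroup.pow_index_mem _ _
    have h2 : ((sectionKernel T N).subgroupOf D).index = p ^ k := hk
    rw [h2] at h1
    have h3 : d ^ p ^ k ∈ sectionKernel T N := h1
    obtain ⟨l, hl⟩ := hKp ⟨_, h3⟩
    have h4 : (d ^ p ^ k) ^ p ^ l = 1 := congrArg Subtype.val hl
    have h5 : d ^ p ^ (k + l) = 1 := by rw [pow_add, pow_mul, h4]
    obtain ⟨j, -, hj⟩ := (Nat.dvd_prime_pow hpf.out).mp (orderOf_dvd_of_pow_eq_one h5)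
    exact ⟨j, by rw [Subgroup.orderOf_mk, hj]⟩
  exact CfsgLib.PLocal.le_pCore_of_normal D hDn hDp haD

variable (S : Sylow p G)

/-- The stable embedding of `S` in `N_G(J(S))`. -/
theorem stable_into_normalizer (hst : IsActionPStable p G)
    (hc : centralizer (pCore p G : Set G) ≤ pCore p G) :
    let N := normalizer (thompsonSubgroupOf p (S : Subgroup G) : Set G)
    ∃ hSN : (S : Subgroup G) ≤ N, IsStableEmbedding p (Subgroup.inclusion hSN) := by
  classical
  intro N
  have hSN : (S : Subgroup G) ≤ N :=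
    Subgroup.le_normalizer.trans (CfsgLib.PLocal.normalizer_le_normalizer_thompsonOf _)
  refine ⟨hSN, Subgroup.inclusion_injective hSN, inferInstance, ⟨S.subtype hSN, ?_⟩, ?_, ?_, ?_⟩
  · rw [Sylow.coe_subtype]
    ext x
    constructor
    · intro hx
      exact ⟨⟨x.1, hx⟩, rfl⟩
    · rintro ⟨y, rfl⟩
      exact y.2
  · -- the core
    have hT : (pCore p G).subgroupOf N ≤ pCore p N := by
      apply CfsgLib.PLocal.le_pCore_of_normal
      · haveI : (pCore p G).Normal := CfsgLib.PLocal.pCore_normal'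
        exact Subgroup.Normal.subgroupOf inferInstance _
      · exact (CfsgLib.PLocal.pCore_isPGroup (p := p) (G := G)).comap_of_injective _ N.subtype_injective
    intro g hg
    apply hT
    rw [Subgroup.mem_subgroupOf]
    apply hc
    rw [Subgroup.mem_centralizer_iff]
    intro t ht
    have h1 : (⟨t, hSN (CfsgLib.PLocal.pCore_le_sylow S ht)⟩ : N) ∈ pCore p N :=
      hT (by rw [Subgroup.mem_subgroupOf]; exact ht)
    exact congrArg Subtype.val (Subgroup.mem_centralizer_iff.mp hg _ h1)
  · have e : (thompsonSubgroup p (S : Subgroup G)).map (Subgroup.inclusion hSN) =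
        (thompsonSubgroupOf p (S : Subgroup G)).subgroupOf N := by
      ext x
      rw [Subgroup.mem_subgroupOf]
      constructor
      · rintro ⟨j, hj, rfl⟩
        exact ⟨j, hj, rfl⟩
      · rintro ⟨j, hj, he⟩
        refine ⟨j, hj, Subtype.ext he⟩
    rw [e]
    exact Subgroup.normal_in_normalizer
  · intro V _ hV
    apply hst.2.2 S V
    rintro _ ⟨v, hv, rfl⟩
    obtain ⟨w, hw, rfl⟩ := hV hv
    exact ⟨w, hw, rfl⟩

/-- **S0624** core. -/
theorem stable_normal_of_action (hst : IsActionPStable p G)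
    (hc : centralizer (pCore p G : Set G) ≤ pCore p G) :
    ((stableNormalClosure p ↥(S : Subgroup G)).map (S : Subgroup G).subtype).Normal := by
  classical
  set W := stableNormalClosure p ↥(S : Subgroup G) with hW
  set E := W.map (S : Subgroup G).subtype with hE
  set J := thompsonSubgroupOf p (S : Subgroup G) with hJ
  have hJs : J = sSup (CfsgLib.PLocal.maxIn p (S : Subgroup G)) := CfsgLib.PLocal.thompsonOf_eq_sSup_maxIn _
  have hEm : ∀ e ∈ E, ∃ w : (S : Subgroup G), w ∈ W ∧ (w : G) = e := by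
    rintro _ ⟨w, hw, rfl⟩
    exact ⟨w, hw, rfl⟩
  have hE1 : E ≤ J ⊓ centralizer (J : Set G) := by
    rintro _ ⟨w, hw, rfl⟩
    have h1 := omegaCenterThompson_le (stable_le_omegaCenterThompson hw)
    obtain ⟨h2, h3⟩ := mem_inf.mp h1
    refine mem_inf.mpr ⟨⟨w, h2, rfl⟩, ?_⟩
    rw [Subgroup.mem_centralizer_iff]
    rintro _ ⟨j, hj, rfl⟩
    exact congrArg Subtype.val (Subgroup.mem_centralizer_iff.mp h3 j hj)
  have hEexp : ∀ e ∈ E, e ^ p = 1 := by
    rintro _ ⟨w, hw, rfl⟩
    have h1 := omegaCenterThompson_exp _ (stable_le_omegaCenterThompson hw)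
    exact congrArg Subtype.val h1
  have hNJE : normalizer (J : Set G) ≤ normalizer (E : Set G) := by
    intro n hn
    obtain ⟨hSN, hτ⟩ := stable_into_normalizer S hst hc
    have h1 := stableNormalClosure_map_normal _ hτ
    apply CfsgLib.PLocal.mem_normalizer_of_conj_le
    rintro _ ⟨w, hw, rfl⟩
    have h2 := h1.conj_mem _ ⟨w, hw, rfl⟩ (⟨n, hn⟩ : normalizer (J : Set G))
    obtain ⟨w', hw', he⟩ := h2
    refine ⟨w', hw', ?_⟩
    exact congrArg Subtype.val he
  have hSN' : (S : Subgroup G) ≤ normalizer (J : Set G) :=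
    Subgroup.le_normalizer.trans (CfsgLib.PLocal.normalizer_le_normalizer_thompsonOf _)
  have hEab : ∀ x ∈ E, ∀ y ∈ E, x * y = y * x := by
    intro x hx y hy
    exact (Subgroup.mem_centralizer_iff.mp (mem_inf.mp (hE1 hx)).2 y (mem_inf.mp (hE1 hy)).1).symm
  have hTS := CfsgLib.PLocal.pCore_le_sylow (p := p) S
  have hET : E ≤ pCore p G := by
    intro e he
    have hq := quad_of_normalized (V := pCore p G) (A := E) (hTS.trans (hSN'.trans hNJE)) hEab he
    refine mem_core_of_section (pCore p G) _ hst.2.1 CfsgLib.PLocal.pCore_normal' ?_ (by rw [hq]; exact bot_le)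
    haveI : (pCore p G).Normal := CfsgLib.PLocal.pCore_normal'
    exact sectionKernel_pgroup _ CfsgLib.PLocal.pCore_isPGroup hc
  refine w_abstract (p := p) maxIn_fam S hc (fun P _ hP => hst.1 P hP) E (by rw [← hJs]; exact hE1) hEexp
    (by rw [← hJs]; exact hNJE) hET ?_ ?_ ?_
  · intro d hd hq u hu
    obtain ⟨w, hw, rfl⟩ := hu
    have h1 : QuadE W (⟨d, hd⟩ : (S : Subgroup G)) := by
      intro v hv
      apply Subtype.ext
      exact hq v.1 ⟨v, hv, rfl⟩
    exact congrArg Subtype.val (stable_quad_central h1 w hw)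
  · intro D hDn hDS hDe hex
    exact repl_elem_G S.isPGroup' D hDS (fun s _ b hb => hDn.conj_mem b hb s) hDe hex
  · intro A hA D hDS hDe hcomm v hv
    apply maxIn_absorb hA (hDS hv) (hDe v hv)
    intro a ha
    exact (hcomm v hv a ha).symm

end Core

end CfsgLib.OOL
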